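import Mathlib
import Cfsg.Agent.Lib.Helper75.LW.Defs

/-!
# LW (S0746) package [K5]: the rigid situation with `k = 5`

`G` 3-transitive of degree `n ≥ 10`, not 4-transitive, 5-homogeneous, 4-point stabilisers trivial,
no involution fixing 3 points.  Counting the order of `G` via 3-tuples and via 5-sets gives
`120 c = (n - 3) (n - 4) d` with `c` odd (order of a 3-point stabiliser), `d` even (order of the
setwise stabiliser of a 5-set), `c ∣ n - 3`, `c ≠ n - 3`; the only solution is `n = 24`, `c = 7`,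
which is excluded by [K524].
-/

set_option autoImplicit false

namespace Cfsg.Agent.Lib.Helper59.LW

open Cfsg.Agent.Lib.Helper75.LW

universe u

/-- the arithmetic of the case `k = 5` -/
theorem lw_k5_arith (n c r d : ℕ) (hn : 10 ≤ n) (hc : c % 2 = 1) (hd : d % 2 = 0)
    (hr : 2 ≤ r) (h1 : n - 3 = c * r) (h2 : 120 = (n - 4) * r * d) : n = 24 ∧ c = 7 := by
  have hd0 : d ≠ 0 := by
    rintro rfl
    simp at h2
  have hd2 : 2 ≤ d := by omega
  have hm : 6 ≤ n - 4 := by omega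
  have hrd : r * d ≤ 20 := by
    by_contra h
    have h21 : 21 ≤ r * d := by omega
    have := Nat.mul_le_mul hm h21
    rw [← mul_assoc] at this
    omega
  have hr10 : r ≤ 10 := by
    have := Nat.mul_le_mul_left r hd2
    omega
  have hd10 : d ≤ 10 := by
    have := Nat.mul_le_mul_right d hr
    omega
  interval_cases r <;> interval_cases d <;> omega

/-- [K5] -/
theorem pkgK5 (hCntT : PkgCntT.{u}) (hCntH : PkgCntH.{u}) (hFree : PkgFree.{u})
    (hNT : PkgNT.{u}) (hTransp : PkgTransp.{u}) (hK524 : PkgK524.{u}) : PkgK5.{u} := by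
  intro α _ _ G hR hTriv hNoInv
  have hn10 : 10 ≤ Fintype.card α := hR.kn
  have hT3 : HT G 3 := hR.tr
  have hnT4 : ¬ HT G 4 := hR.ntr
  have hH5 : HH G 5 := hR.h2
  obtain ⟨p, q, s, hpq, hps, hqs⟩ := Fintype.two_lt_card_iff.mp (by omega : 2 < Fintype.card α)
  obtain ⟨Λ, hΛ⟩ : ∃ Λ : Finset α, Λ = {p, q, s} := ⟨_, rfl⟩
  have hc3 : Λ.card = 3 := by
    rw [hΛ, Finset.card_eq_three]; exact ⟨p, q, s, hpq, hps, hqs, rfl⟩
  have hmemΛ : ∀ b, b ∈ Λ ↔ b = p ∨ b = q ∨ b = s := by
    intro b; rw [hΛ]; simp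
  have hpΛ : p ∈ Λ := (hmemΛ p).mpr (Or.inl rfl)
  have hqΛ : q ∈ Λ := (hmemΛ q).mpr (Or.inr (Or.inl rfl))
  have hsΛ : s ∈ Λ := (hmemΛ s).mpr (Or.inr (Or.inr rfl))
  obtain ⟨c, hc⟩ : ∃ c, c = Nat.card (PS G Λ) := ⟨_, rfl⟩
  have eT := hCntT G 3 Λ hc3 hT3
  rw [← hc] at eT
  have hdpos : 0 < (Fintype.card α).descFactorial 3 := by
    rw [Nat.pos_iff_ne_zero, Ne, Nat.descFactorial_eq_zero_iff_lt]; omega
  have hceq : ∀ s' : Finset α, s'.card = 3 → Nat.card (PS G s') = c := by
    intro s' hs'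
    have e' := hCntT G 3 s' hs' hT3
    rw [eT] at e'
    exact (Nat.eq_of_mul_eq_mul_left hdpos e').symm
  -- `c` is odd
  have hcodd : c % 2 = 1 := by
    by_contra hne
    have h2 : 2 ∣ Nat.card (PS G Λ) := by rw [← hc]; omega
    have hfin : Finite (PS G Λ) := inferInstance
    obtain ⟨g, hg⟩ := exists_prime_orderOf_dvd_card' 2 h2
    have hg2 : (g : Equiv.Perm α) * (g : Equiv.Perm α) = 1 := by
      have h : g ^ 2 = 1 := by rw [← hg]; exact pow_orderOf_eq_one g
      have h' := congrArg Subtype.val h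
      simpa [pow_two] using h'
    have hg1 := hNoInv Λ hc3 (g : Equiv.Perm α) (mem_PS.mp g.2).1 hg2 (mem_PS.mp g.2).2
    have hg1' : g = 1 := Subtype.ext hg1
    rw [hg1'] at hg
    simp at hg
  -- the involution inducing the transposition `(p q)` on `Λ`
  obtain ⟨a, haG, ha2, hap, haq, hafix⟩ := hTransp G 3 Λ p q hc3 hT3 hNoInv hpΛ hqΛ hpq
  have has : a s = s := hafix s hsΛ (Ne.symm hps) (Ne.symm hqs)
  have haa : ∀ b, a (a b) = b := by
    intro b
    have h := congrArg (fun σ : Equiv.Perm α => σ b) ha2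
    simpa using h
  have haΛ : ∀ b, b ∈ Λ → a b ∈ Λ := by
    intro b hb
    rcases (hmemΛ b).mp hb with h | h | h
    · rw [h, hap]; exact hqΛ
    · rw [h, haq]; exact hpΛ
    · rw [h, has]; exact hsΛ
  have ha1 : a ≠ 1 := by
    intro h
    rw [h] at hap
    exact hpq hap
  -- `a` moves a point outside `Λ`
  have hmove : ∃ y, y ∉ Λ ∧ a y ≠ y := by
    by_contra hcon
    have hfixall : ∀ y, y ∉ Λ → a y = y := by
      intro y hy
      by_contra h
      exact hcon ⟨y, hy, h⟩
    have hcard : 3 ≤ (Λᶜ).card := by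
      rw [Finset.card_compl, hc3]; omega
    obtain ⟨t, htsub, htc⟩ := Finset.exists_subset_card_eq hcard
    apply ha1
    apply hNoInv t htc a haG ha2
    intro b hb
    exact hfixall b (Finset.mem_compl.mp (htsub hb))
  obtain ⟨y, hyΛ, hay⟩ := hmove
  have hayΛ : a y ∉ Λ := by
    intro h
    have h' := haΛ _ h
    rw [haa] at h'
    exact hyΛ h'
  have hΛy : ∀ b, b ∈ Λ → b ≠ y := fun b hb h => hyΛ (h ▸ hb)
  have hΛay : ∀ b, b ∈ Λ → b ≠ a y := fun b hb h => hayΛ (h ▸ hb)
  obtain ⟨Δ, hΔ⟩ : ∃ Δ : Finset α, Δ = {p, q, s, y, a y} := ⟨_, rfl⟩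
  have hmemΔ : ∀ b, b ∈ Δ ↔ b = p ∨ b = q ∨ b = s ∨ b = y ∨ b = a y := by
    intro b; rw [hΔ]; simp
  have hc5 : Δ.card = 5 := by
    have e1 : ({y, a y} : Finset α).card = 2 := Finset.card_pair (Ne.symm hay)
    have e2 : ({s, y, a y} : Finset α).card = 3 := by
      rw [Finset.card_insert_of_notMem, e1]
      simp only [Finset.mem_insert, Finset.mem_singleton, not_or]
      exact ⟨hΛy s hsΛ, hΛay s hsΛ⟩
    have e3 : ({q, s, y, a y} : Finset α).card = 4 := by
      rw [Finset.card_insert_of_notMem, e2]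
      simp only [Finset.mem_insert, Finset.mem_singleton, not_or]
      exact ⟨hqs, hΛy q hqΛ, hΛay q hqΛ⟩
    rw [hΔ, Finset.card_insert_of_notMem, e3]
    simp only [Finset.mem_insert, Finset.mem_singleton, not_or]
    exact ⟨hpq, hps, hΛy p hpΛ, hΛay p hpΛ⟩
  have haΔ : ∀ b, b ∈ Δ → a b ∈ Δ := by
    intro b hb
    rcases (hmemΔ b).mp hb with h | h | h | h | h
    · rw [h, hap, hmemΔ]; right; left; rfl
    · rw [h, haq, hmemΔ]; left; rfl
    · rw [h, has, hmemΔ]; right; right; left; rfl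
    · rw [h, hmemΔ]; right; right; right; right; rfl
    · rw [h, haa, hmemΔ]; right; right; right; left; rfl
  have haSS : a ∈ SS G Δ := by
    rw [mem_SS]
    refine ⟨haG, fun b => ⟨fun h => ?_, haΔ b⟩⟩
    have h' := haΔ _ h
    rwa [haa] at h'
  obtain ⟨d, hd⟩ : ∃ d, d = Nat.card (SS G Δ) := ⟨_, rfl⟩
  have hord : orderOf a = 2 := orderOf_eq_prime (by rw [pow_two]; exact ha2) ha1
  have hdeven : d % 2 = 0 := by
    have h := Subgroup.orderOf_dvd_natCard (SS G Δ) haSS
    rw [hord, ← hd] at h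
    omega
  have eH := hCntH G 5 Δ hc5 hH5
  rw [← hd] at eH
  -- the counting identity
  obtain ⟨N, hN⟩ : ∃ N, N = Fintype.card α := ⟨_, rfl⟩
  rw [← hN] at eT eH hdpos hn10
  have f1 : N.descFactorial 5 = 120 * N.choose 5 := by
    rw [Nat.descFactorial_eq_factorial_mul_choose]
    rfl
  have f2 : N.descFactorial 5 = (N - 4) * ((N - 3) * N.descFactorial 3) := by
    rw [Nat.descFactorial_succ N 4, Nat.descFactorial_succ N 3]
  have key : N.descFactorial 3 * (120 * c) = N.descFactorial 3 * ((N - 4) * (N - 3) * d) := by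
    calc N.descFactorial 3 * (120 * c) = 120 * (N.descFactorial 3 * c) := by ring
      _ = 120 * (N.choose 5 * d) := by rw [← eT, eH]
      _ = (120 * N.choose 5) * d := by ring
      _ = ((N - 4) * ((N - 3) * N.descFactorial 3)) * d := by rw [← f1, f2]
      _ = N.descFactorial 3 * ((N - 4) * (N - 3) * d) := by ring
  have key' : 120 * c = (N - 4) * (N - 3) * d := Nat.eq_of_mul_eq_mul_left hdpos key
  have hdiv : c ∣ N - 3 := by
    have h := hFree G Λ (by rw [hc3]; exact hTriv)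
    rwa [hc3, ← hc, ← hN] at h
  have hne : c ≠ N - 3 := by
    have h := hNT G 3 Λ hc3 hT3 hTriv hnT4
    rwa [← hc, ← hN] at h
  obtain ⟨r, hr⟩ := hdiv
  have hr2 : 2 ≤ r := by
    by_contra hlt
    have hr01 : r = 0 ∨ r = 1 := by omega
    rcases hr01 with h | h
    · rw [h] at hr; omega
    · rw [h, mul_one] at hr; exact hne hr.symm
  have hc0 : 0 < c := by omega
  have h120 : 120 = (N - 4) * r * d := by
    have h : c * 120 = c * ((N - 4) * r * d) := by
      calc c * 120 = 120 * c := by ring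
        _ = (N - 4) * (N - 3) * d := key'
        _ = (N - 4) * (c * r) * d := by rw [hr]
        _ = c * ((N - 4) * r * d) := by ring
    exact Nat.eq_of_mul_eq_mul_left hc0 h
  obtain ⟨hN24, hc7⟩ := lw_k5_arith N c r d hn10 hcodd hdeven hr2 hr h120
  exact hK524 G (hN ▸ hN24) hT3 hTriv (fun s' hs' => by rw [hceq s' hs', hc7])

end Cfsg.Agent.Lib.Helper59.LW
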