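import Mathlib
import Cfsg.Agent.Lib.Helper75.LW.Defs

/-!
# LW (S0746) package [K524]: the case `n = 24` of `k = 5`

A 3-transitive group of degree 24 whose 4-point stabilisers are trivial and whose 3-point
stabilisers have order 7 does not exist: the 2-point stabiliser has order `22 * 7 = 154`, its
Sylow 11-subgroup is normal and centralised by every element of order 7, which forces an element
of order 7 to fix a fourth point.
-/

set_option autoImplicit false

namespace Cfsg.Agent.Lib.Helper59.LW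

open Cfsg.Agent.Lib.Helper75.LW

universe u

/-- arithmetic: a seventh root of unity modulo 11 is 1 -/
theorem lw_zmod11_pow7 : ∀ z : ZMod 11, z ^ 7 = 1 → z = 1 := by decide

/-- a group of order 154 has an element of order 11 commuting with all elements of order
dividing 7 -/
theorem lw_grp154 {L : Type*} [Group L] [Finite L] (hL : Nat.card L = 154) :
    ∃ π : L, orderOf π = 11 ∧ ∀ κ : L, κ ^ 7 = 1 → κ * π = π * κ := by
  have hp11 : Nat.Prime 11 := by norm_num
  have : Fact (Nat.Prime 11) := ⟨hp11⟩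
  obtain ⟨P⟩ : Nonempty (Sylow 11 L) := Sylow.nonempty
  have hfac : (154 : ℕ).factorization 11 = 1 := by
    have e : (154 : ℕ) = 11 * 14 := by norm_num
    rw [e, Nat.factorization_mul (by norm_num) (by norm_num)]
    have h1 : (11 : ℕ).factorization 11 = 1 := hp11.factorization_self
    have h2 : (14 : ℕ).factorization 11 = 0 :=
      Nat.factorization_eq_zero_of_not_dvd (by norm_num)
    simp [h1, h2]
  have hP : Nat.card (P : Subgroup L) = 11 := by
    rw [Sylow.card_eq_multiplicity, hL, hfac]; norm_num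
  have hidx : (P : Subgroup L).index = 14 := by
    have := Subgroup.index_mul_card (P : Subgroup L)
    rw [hP, hL] at this; omega
  have h1 : Nat.card (Sylow 11 L) = 1 := by
    have hm : Nat.card (Sylow 11 L) % 11 = 1 % 11 := card_sylow_modEq_one 11 L
    have hd : Nat.card (Sylow 11 L) ∣ 14 := by
      have := Sylow.card_dvd_index P
      rwa [hidx] at this
    have hle : Nat.card (Sylow 11 L) ≤ 14 := Nat.le_of_dvd (by norm_num) hd
    obtain ⟨c, hc⟩ : ∃ c, c = Nat.card (Sylow 11 L) := ⟨_, rfl⟩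
    rw [← hc] at hm hd hle ⊢
    interval_cases c <;> omega
  have hsub : Subsingleton (Sylow 11 L) := (Nat.card_eq_one_iff_unique.mp h1).1
  have hnorm : (P : Subgroup L).Normal := Sylow.normal_of_subsingleton P
  -- a generator
  have hnt : (P : Subgroup L) ≠ ⊥ := by
    intro h
    rw [h] at hP
    simp at hP
  obtain ⟨π, hπP, hπ1⟩ := (Subgroup.ne_bot_iff_exists_ne_one).mp hnt |>.imp
    (fun x hx => hx) |> fun ⟨x, hx⟩ => (⟨(x : L), x.2, fun h => hx (Subtype.ext h)⟩ :
      ∃ y : L, y ∈ (P : Subgroup L) ∧ y ≠ 1)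
  have hord : orderOf π = 11 := by
    have hdvd : orderOf π ∣ 11 := by
      have h := Subgroup.orderOf_dvd_natCard (P : Subgroup L) hπP
      rwa [hP] at h
    rcases (Nat.dvd_prime hp11).mp hdvd with h | h
    · exact absurd (orderOf_eq_one_iff.mp h) hπ1
    · exact h
  have hz : Subgroup.zpowers π = (P : Subgroup L) := by
    apply Subgroup.eq_of_le_of_card_ge
    · rw [Subgroup.zpowers_le]; exact hπP
    · rw [Nat.card_zpowers, hord, hP]
  refine ⟨π, hord, fun κ hκ => ?_⟩
  have hconj : κ * π * κ⁻¹ ∈ Subgroup.zpowers π := by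
    rw [hz]; exact hnorm.conj_mem π hπP κ
  rw [← mem_powers_iff_mem_zpowers, Submonoid.mem_powers_iff] at hconj
  obtain ⟨m, hm⟩ := hconj
  have hind : ∀ i : ℕ, κ ^ i * π * (κ ^ i)⁻¹ = π ^ (m ^ i) := by
    intro i
    induction i with
    | zero => simp
    | succ i ih =>
      have e : κ ^ (i + 1) * π * (κ ^ (i + 1))⁻¹ = κ * (κ ^ i * π * (κ ^ i)⁻¹) * κ⁻¹ := by
        rw [pow_succ']; group
      rw [e, ih, ← conj_pow, ← hm, ← pow_mul, pow_succ']
  have h7 := hind 7
  rw [hκ] at h7
  have h7' : π ^ (m ^ 7) = π ^ 1 := by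
    rw [← h7]; simp
  rw [pow_eq_pow_iff_modEq, hord] at h7'
  have hz7 : ((m : ZMod 11)) ^ 7 = 1 := by
    have := (ZMod.natCast_eq_natCast_iff (m ^ 7) 1 11).mpr h7'
    simpa using this
  have hm1 : (m : ZMod 11) = ((1 : ℕ) : ZMod 11) := by
    rw [lw_zmod11_pow7 _ hz7]; simp
  have hm1' : m ≡ 1 [MOD 11] := (ZMod.natCast_eq_natCast_iff m 1 11).mp hm1
  have hπm : π ^ m = π ^ 1 := by
    rw [pow_eq_pow_iff_modEq, hord]; exact hm1'
  rw [pow_one] at hπm
  rw [hπm] at hm
  -- hm : π = κ * π * κ⁻¹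
  calc κ * π = (κ * π * κ⁻¹) * κ := by group
    _ = π * κ := by rw [← hm]

/-- [K524] -/
theorem pkgK524 (hCntT : PkgCntT.{u}) (hMono : PkgMono.{u}) : PkgK524.{u} := by
  intro α _ _ G hn hT3 hTriv4 h7
  have h3 : 2 < Fintype.card α := by omega
  obtain ⟨p, q, x, hpq, hpx, hqx⟩ := Fintype.two_lt_card_iff.mp h3
  have hT2 : HT G 2 := hMono G 2 3 (by norm_num) (by omega) hT3
  have hc2 : ({p, q} : Finset α).card = 2 := Finset.card_pair hpq
  have hc3 : ({p, q, x} : Finset α).card = 3 := by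
    rw [Finset.card_eq_three]; exact ⟨p, q, x, hpq, hpx, hqx, rfl⟩
  have e2 := hCntT G 2 {p, q} hc2 hT2
  have e3 := hCntT G 3 {p, q, x} hc3 hT3
  rw [hn] at e2 e3
  rw [h7 _ hc3] at e3
  have d2 : (24 : ℕ).descFactorial 2 = 552 := by decide
  have d3 : (24 : ℕ).descFactorial 3 = 12144 := by decide
  rw [d2] at e2
  rw [d3] at e3
  have hL : Nat.card (PS G {p, q}) = 154 := by omega
  have hfinL : Finite (PS G {p, q}) := inferInstance
  obtain ⟨π', hπord, hπc⟩ := lw_grp154 hL
  -- a nontrivial element of the 3-point stabiliser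
  have hK : Nat.card (PS G {p, q, x}) = 7 := h7 _ hc3
  have hKnt : (PS G {p, q, x}) ≠ ⊥ := by
    intro h
    rw [h] at hK
    simp at hK
  obtain ⟨κ', hκ'⟩ := (Subgroup.ne_bot_iff_exists_ne_one).mp hKnt
  obtain ⟨κ, hκK, hκ1⟩ : ∃ κ : Equiv.Perm α, κ ∈ PS G {p, q, x} ∧ κ ≠ 1 :=
    ⟨(κ' : Equiv.Perm α), κ'.2, fun h => hκ' (Subtype.ext h)⟩
  have hκ7 : κ ^ 7 = 1 := by
    have h := Subgroup.orderOf_dvd_natCard (PS G {p, q, x}) hκK
    rw [hK] at h
    exact orderOf_dvd_iff_pow_eq_one.mp h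
  have hκL : κ ∈ PS G {p, q} := by
    rw [mem_PS] at hκK ⊢
    refine ⟨hκK.1, fun a ha => hκK.2 a ?_⟩
    simp only [Finset.mem_insert, Finset.mem_singleton] at ha ⊢
    tauto
  have hcomm : κ * (π' : Equiv.Perm α) = (π' : Equiv.Perm α) * κ := by
    have h := hπc ⟨κ, hκL⟩ (Subtype.ext (by simpa using hκ7))
    exact congrArg Subtype.val h
  obtain ⟨π, hπ⟩ : ∃ π : Equiv.Perm α, π = (π' : Equiv.Perm α) := ⟨_, rfl⟩
  rw [← hπ] at hcomm
  have hπL : π ∈ PS G {p, q} := by rw [hπ]; exact π'.2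
  have hπo : orderOf π = 11 := by
    rw [hπ, Subgroup.orderOf_coe]; exact hπord
  have hπp : π p = p := (mem_PS.mp hπL).2 p (by simp)
  have hπq : π q = q := (mem_PS.mp hπL).2 q (by simp)
  have hκp : κ p = p := (mem_PS.mp hκK).2 p (by simp)
  have hκq : κ q = q := (mem_PS.mp hκK).2 q (by simp)
  have hκx : κ x = x := (mem_PS.mp hκK).2 x (by simp)
  have hκπx : κ (π x) = π x := by
    have h := congrArg (fun σ : Equiv.Perm α => σ x) hcomm
    simp only [Equiv.Perm.mul_apply] at h
    rw [h, hκx]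
  by_cases hfix : π x = x
  · -- then `π` lies in the 3-point stabiliser of order 7
    have hπK : π ∈ PS G {p, q, x} := by
      rw [mem_PS]
      refine ⟨(mem_PS.mp hπL).1, fun a ha => ?_⟩
      simp only [Finset.mem_insert, Finset.mem_singleton] at ha
      rcases ha with rfl | rfl | rfl
      · exact hπp
      · exact hπq
      · exact hfix
    have h := Subgroup.orderOf_dvd_natCard (PS G {p, q, x}) hπK
    rw [hK, hπo] at h
    omega
  · -- four distinct points fixed by `κ ≠ 1`
    have hxp : π x ≠ p := fun h => hpx (π.injective (hπp.trans h.symm))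
    have hxq : π x ≠ q := fun h => hqx (π.injective (hπq.trans h.symm))
    have hc4 : ({p, q, x, π x} : Finset α).card = 4 := by
      rw [Finset.card_eq_succ]
      refine ⟨p, {q, x, π x}, ?_, rfl, ?_⟩
      · simp only [Finset.mem_insert, Finset.mem_singleton, not_or]
        exact ⟨hpq, hpx, fun h => hxp h.symm⟩
      · rw [Finset.card_eq_three]
        exact ⟨q, x, π x, hqx, fun h => hxq h.symm, fun h => hfix h.symm, rfl⟩
    apply hκ1
    apply hTriv4 _ hc4 κ (mem_PS.mp hκK).1
    intro a ha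
    simp only [Finset.mem_insert, Finset.mem_singleton] at ha
    rcases ha with rfl | rfl | rfl | rfl
    · exact hκp
    · exact hκq
    · exact hκx
    · exact hκπx

end Cfsg.Agent.Lib.Helper59.LW
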